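import Cfsg.Agent.H139.Cusp.Bridge

/-!
# The cuspidal character of `GL₂(q)`, `q ≡ 2 (mod 3)`, attached to a character of order three (helper495, S4933)

* `lines g` : the number of `g`-invariant lines of a plane;
* `cusp_two` : `cusp L θ g = lines g - θ(λ₁) - θ(λ₂)`, `θ` trivial on `F^*`;
* `exists_rho` : the character `ρ` of degree `q - 1`, trivial on the scalars, `ρ = lines - 2` on `3`-regular elements.
-/

set_option autoImplicit false

open Polynomial Cfsg
open scoped ComplexConjugate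

namespace Cfsg.Agent.H495.HT

open Cfsg.Agent.H139.Cusp Cfsg.Agent.H53.HC

universe u v w

attribute [local instance] fintypeHom fintypeSub finite_quot

section val

variable {F : Type u} [Field F] [Finite F] {L : Type w} [Field L] [Finite L] [Algebra F L] (θ : L →*₀ ℂ)
  {V : Type v} [AddCommGroup V] [Module F V] [Finite V]

/-- the number of invariant lines -/
noncomputable def lines (g : V →ₗ[F] V) : ℕ :=
  Nat.card {W : Submodule F V // Module.finrank F W = 1 ∧ W ≤ W.comap g}

omit [Finite F] [Finite L] in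
theorem kap_bot (g : V →ₗ[F] V) : kap (lb L θ) g ⊥ = 0 := by
  classical
  have h : (⊥ : Submodule F V) ≤ (⊥ : Submodule F V).comap g := bot_le
  rw [kap_eq (lb L θ) h]
  have h1 : (g.restrict h).charpoly = 1 := by
    have h2 : (g.restrict h).charpoly.natDegree = 0 := by
      rw [LinearMap.charpoly_natDegree, finrank_bot]
    exact (LinearMap.charpoly_monic _).natDegree_eq_zero.1 h2
  rw [h1, Finset.sum_eq_zero, sub_zero]
  · rw [lb, Polynomial.map_one, roots_one]
    rfl
  · intro W hW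
    rw [Finset.mem_filter] at hW
    exact absurd hW.2 (not_lt_bot)

omit [Finite F] [Finite L] in
theorem kap_line (hθ : ∀ c : F, c ≠ 0 → θ (algebraMap F L c) = 1) {g : V →ₗ[F] V} (hg : Function.Injective g)
    {W : Submodule F V} (hW : Module.finrank F W = 1) (h : W ≤ W.comap g) : kap (lb L θ) g W = 1 := by
  classical
  rw [kap_eq (lb L θ) h]
  have h0 : ∑ W' ∈ Finset.univ.filter (· < W), kap (lb L θ) g W' = 0 := by
    refine Finset.sum_eq_zero fun W' hW' => ?_
    rw [Finset.mem_filter] at hW'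
    have h1 : Module.finrank F W' < 1 := hW ▸ Submodule.finrank_lt_finrank_of_lt hW'.2
    have h2 : W' = ⊥ := Submodule.finrank_eq_zero.1 (by omega)
    rw [h2, kap_bot]
  rw [h0, sub_zero]
  have hd : (g.restrict h).charpoly.natDegree = 1 := by rw [LinearMap.charpoly_natDegree, hW]
  obtain ⟨c, hc⟩ : ∃ c : F, (g.restrict h).charpoly = X - C c := by
    refine ⟨-(g.restrict h).charpoly.coeff 0, ?_⟩
    have h1 := (LinearMap.charpoly_monic (g.restrict h)).eq_X_add_C hd
    rw [C_neg, sub_neg_eq_add]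
    exact h1
  have hc0 : c ≠ 0 := by
    rintro rfl
    rw [C_0, sub_zero] at hc
    have h1 := LinearMap.aeval_self_charpoly (g.restrict h)
    rw [hc, aeval_X] at h1
    have : Nontrivial W := Module.nontrivial_of_finrank_pos (R := F) (by omega)
    obtain ⟨x, hx⟩ := exists_ne (0 : W)
    apply hx
    have h2 : (g.restrict h) x = 0 := by rw [h1]; rfl
    apply Subtype.ext
    apply hg
    rw [ZeroMemClass.coe_zero, map_zero]
    exact congrArg Subtype.val h2
  rw [hc, lb, Polynomial.map_sub, Polynomial.map_X, map_C, roots_X_sub_C, Multiset.map_singleton,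
    Multiset.sum_singleton, hθ c hc0]

omit [Finite F] [Finite L] in
/-- **The values in dimension two.** -/
theorem cusp_two (hV : Module.finrank F V = 2) (hθ : ∀ c : F, c ≠ 0 → θ (algebraMap F L c) = 1)
    {g : V →ₗ[F] V} (hg : Function.Injective g) : cusp L θ g = (lines g : ℂ) - lb L θ g.charpoly := by
  classical
  have h1 := kap_sum_top (lb L θ) g
  have h2 : ∑ W : Submodule F V, kap (lb L θ) g W = kap (lb L θ) g ⊤ + (lines g : ℂ) := by
    have h3 : ∀ W : Submodule F V, kap (lb L θ) g W =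
        (if W = ⊤ then kap (lb L θ) g ⊤ else 0) + (if Module.finrank F W = 1 ∧ W ≤ W.comap g then 1 else 0) := by
      intro W
      have h4 : Module.finrank F W ≤ 2 := hV ▸ Submodule.finrank_le W
      by_cases hT : W = ⊤
      · subst hT
        rw [if_pos rfl, if_neg, add_zero]
        rw [finrank_top, hV]
        omega
      · rw [if_neg hT, zero_add]
        have h5 : Module.finrank F W ≠ 2 := fun h => hT (Submodule.eq_top_of_finrank_eq (h.trans hV.symm))
        by_cases h1 : Module.finrank F W = 1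
        · by_cases hi : W ≤ W.comap g
          · rw [if_pos ⟨h1, hi⟩, kap_line θ hθ hg h1 hi]
          · rw [if_neg (fun h => hi h.2), kap_of_not _ hi]
        · rw [if_neg (fun h => h1 h.1)]
          have h6 : W = ⊥ := Submodule.finrank_eq_zero.1 (by omega)
          rw [h6, kap_bot]
    rw [Finset.sum_congr rfl fun W _ => h3 W, Finset.sum_add_distrib, Finset.sum_ite_eq' Finset.univ ⊤,
      if_pos (Finset.mem_univ _)]
    congr 1
    rw [Finset.sum_boole, lines, Nat.card_eq_fintype_card, Fintype.card_subtype]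
  rw [cusp, hV]
  rw [h2] at h1
  linear_combination (-1 : ℂ) * h1

end val

section gl

variable {F : Type u} [Field F] [Finite F] {L : Type w} [Field L] [Finite L] [Algebra F L] (θ : L →*₀ ℂ)

/-- the number of invariant lines of a matrix -/
noncomputable def ln (g : GL (Fin 2) F) : ℕ := lines (Matrix.toLin' (g : Matrix (Fin 2) (Fin 2) F))

omit [Finite F] in
theorem toLin_inj (g : GL (Fin 2) F) : Function.Injective (Matrix.toLin' (g : Matrix (Fin 2) (Fin 2) F)) := by
  intro x y hxy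
  have h := congrArg (Matrix.toLin' ((g⁻¹ : GL (Fin 2) F) : Matrix (Fin 2) (Fin 2) F)) hxy
  rwa [← Matrix.toLin'_mul_apply, ← Matrix.toLin'_mul_apply, ← Units.val_mul, inv_mul_cancel, Units.val_one,
    Matrix.toLin'_one, LinearMap.id_apply, LinearMap.id_apply] at h

omit [Finite L] in
theorem psi_val (hθ : ∀ c : F, c ≠ 0 → θ (algebraMap F L c) = 1) (g : GL (Fin 2) F) :
    psi L θ g = (ln g : ℂ) - lb L θ (g : Matrix (Fin 2) (Fin 2) F).charpoly := by
  rw [psi, cuspMat, cusp_two θ (Module.finrank_fin_fun F) hθ (toLin_inj g), ln, Matrix.charpoly_toLin']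

omit [Finite F] [Finite L] in
theorem root_pow {g : GL (Fin 2) F} {x : L}
    (hx : x ∈ ((g : Matrix (Fin 2) (Fin 2) F).charpoly.map (algebraMap F L)).roots) : x ^ orderOf g = 1 := by
  have h0 : (((g : Matrix (Fin 2) (Fin 2) F).map (algebraMap F L)).charpoly).IsRoot x := by
    rw [← Matrix.charpoly_map] at hx
    exact Polynomial.isRoot_of_mem_roots hx
  have h2 : x ∈ spectrum L ((g : Matrix (Fin 2) (Fin 2) F).map (algebraMap F L)) :=
    Matrix.mem_spectrum_of_isRoot_charpoly h0
  have h3 := spectrum.pow_mem_pow ((g : Matrix (Fin 2) (Fin 2) F).map (algebraMap F L)) (orderOf g) h2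
  have h4 : ((g : Matrix (Fin 2) (Fin 2) F).map (algebraMap F L)) ^ orderOf g = 1 := by
    have h5 : (algebraMap F L).mapMatrix ((g : Matrix (Fin 2) (Fin 2) F) ^ orderOf g) = 1 := by
      rw [← Units.val_pow_eq_pow_val, pow_orderOf_eq_one, Units.val_one, map_one]
    rw [map_pow] at h5
    exact h5
  rw [h4, spectrum.one_eq] at h3
  exact h3

/-- the values at the elements of order prime to the order of `θ` -/
theorem psi_reg (hL : Module.finrank F L = 2) (hθ : ∀ c : F, c ≠ 0 → θ (algebraMap F L c) = 1) {m : ℕ}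
    (hm : ∀ x : L, x ≠ 0 → θ x ^ m = 1) {g : GL (Fin 2) F} (hg : (orderOf g).Coprime m) :
    psi L θ g = (ln g : ℂ) - 2 := by
  rw [psi_val θ hθ]
  congr 1
  have hdeg : (g : Matrix (Fin 2) (Fin 2) F).charpoly.natDegree = 2 := by
    rw [Matrix.charpoly_natDegree_eq_dim, Fintype.card_fin]
  have hs : ((g : Matrix (Fin 2) (Fin 2) F).charpoly.map (algebraMap F L)).Splits :=
    splits_of_le (n := 2) (N := 2) (fun d hd0 hd => by interval_cases d <;> norm_num) two_ne_zero
      (hL ▸ splits_X_pow_sub_X F L) 2 le_rfl _ (Matrix.charpoly_monic _) hdeg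
  have hcard : ((g : Matrix (Fin 2) (Fin 2) F).charpoly.map (algebraMap F L)).roots.card = 2 := by
    rw [← hs.natDegree_eq_card_roots, Polynomial.natDegree_map, hdeg]
  have hone : ∀ x ∈ ((g : Matrix (Fin 2) (Fin 2) F).charpoly.map (algebraMap F L)).roots, θ x = 1 := by
    intro x hx
    have h1 := root_pow hx
    have ho : orderOf g ≠ 0 := (orderOf_pos g).ne'
    have hx0 : x ≠ 0 := by
      rintro rfl
      rw [zero_pow ho] at h1
      exact zero_ne_one h1
    have h2 : θ x ^ orderOf g = 1 := by rw [← map_pow, h1, map_one]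
    have h3 := hm x hx0
    have h4 : orderOf (θ x) ∣ (orderOf g).gcd m := Nat.dvd_gcd (orderOf_dvd_of_pow_eq_one h2) (orderOf_dvd_of_pow_eq_one h3)
    rw [Nat.Coprime.gcd_eq_one hg, Nat.dvd_one, orderOf_eq_one_iff] at h4
    exact h4
  rw [lb, Multiset.map_congr rfl hone, Multiset.map_const', Multiset.sum_replicate, hcard]
  simp

omit [Finite F] [Finite L] in
theorem lb_root (hθ : ∀ c : F, c ≠ 0 → θ (algebraMap F L c) = 1) (g : GL (Fin 2) F) {c : F}
    (hc : (g : Matrix (Fin 2) (Fin 2) F).charpoly.IsRoot c) : lb L θ (g : Matrix (Fin 2) (Fin 2) F).charpoly = 2 := by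
  set f := (g : Matrix (Fin 2) (Fin 2) F).charpoly with hf
  have hdeg : f.natDegree = 2 := by
    rw [hf, Matrix.charpoly_natDegree_eq_dim, Fintype.card_fin]
  have hmon : f.Monic := Matrix.charpoly_monic _
  have h0 : f.coeff 0 ≠ 0 := by
    have h1 : ((g : Matrix (Fin 2) (Fin 2) F)).det ≠ 0 := g.det.ne_zero
    rw [Matrix.det_eq_sign_charpoly_coeff] at h1
    exact right_ne_zero_of_mul h1
  obtain ⟨r, hr⟩ := Polynomial.dvd_iff_isRoot.2 hc
  have hrm : r.Monic := by
    have h1 := hmon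
    rw [hr] at h1
    exact (monic_X_sub_C c).of_mul_monic_left h1
  have hrd : r.natDegree = 1 := by
    have h1 := congrArg Polynomial.natDegree hr
    rw [hdeg, (monic_X_sub_C c).natDegree_mul hrm, natDegree_X_sub_C] at h1
    omega
  obtain ⟨d, hd⟩ : ∃ d : F, r = X - C d := by
    refine ⟨-r.coeff 0, ?_⟩
    have h1 := hrm.eq_X_add_C hrd
    rw [C_neg, sub_neg_eq_add]
    exact h1
  rw [hd] at hr
  have hcd : c ≠ 0 ∧ d ≠ 0 := by
    rw [hr] at h0
    have h2 : ((X - C c) * (X - C d) : F[X]).coeff 0 = c * d := by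
      rw [Polynomial.mul_coeff_zero]
      simp
    rw [h2] at h0
    exact ⟨left_ne_zero_of_mul h0, right_ne_zero_of_mul h0⟩
  have hl : ∀ a : F, a ≠ 0 → lb L θ (X - C a) = 1 := fun a ha => by
    rw [lb, Polynomial.map_sub, Polynomial.map_X, map_C, roots_X_sub_C, Multiset.map_singleton,
      Multiset.sum_singleton, hθ a ha]
  rw [hr, lb_mul L θ _ _ (monic_X_sub_C c) (monic_X_sub_C d), hl c hcd.1, hl d hcd.2]
  norm_num

omit [Finite F] in
/-- an invariant line gives a root of the characteristic polynomial -/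
theorem exists_root {g : GL (Fin 2) F} (h : 0 < ln g) : ∃ c : F, (g : Matrix (Fin 2) (Fin 2) F).charpoly.IsRoot c := by
  obtain ⟨⟨W, hW, hi⟩⟩ := (Nat.card_pos_iff.1 h).1
  obtain ⟨v, hv, hv'⟩ := finrank_eq_one_iff'.1 hW
  obtain ⟨c, hc⟩ := hv' ⟨Matrix.toLin' (g : Matrix (Fin 2) (Fin 2) F) v, hi v.2⟩
  refine ⟨c, ?_⟩
  have h1 : Module.End.HasEigenvalue (Matrix.toLin' (g : Matrix (Fin 2) (Fin 2) F)) c := by
    refine Module.End.hasEigenvalue_of_hasEigenvector (x := (v : Fin 2 → F)) ⟨?_, fun h0 => hv (Subtype.ext h0)⟩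
    rw [Module.End.mem_eigenspace_iff]
    exact (congrArg Subtype.val hc).symm
  rw [Module.End.hasEigenvalue_iff_isRoot_charpoly, Matrix.charpoly_toLin'] at h1
  exact h1

omit [Finite L] in
theorem psi_pos (hθ : ∀ c : F, c ≠ 0 → θ (algebraMap F L c) = 1) {g : GL (Fin 2) F} (hg : 0 < ln g) :
    psi L θ g = (ln g : ℂ) - 2 := by
  obtain ⟨c, hc⟩ := exists_root hg
  rw [psi_val θ hθ, lb_root θ hθ g hc]

end gl

/-- **The character `ρ`.** -/
theorem exists_rho (F : Type u) [Field F] [Finite F] (hq : Nat.card F % 3 = 2) :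
    ∃ ρ : IrrCharacter (GL (Fin 2) F), (ρ : GL (Fin 2) F → ℂ) 1 = (Nat.card F : ℂ) - 1 ∧
      (∀ (c : Fˣ) (g : GL (Fin 2) F), (ρ : GL (Fin 2) F → ℂ) (Matrix.GeneralLinearGroup.scalar (Fin 2) c * g) =
        (ρ : GL (Fin 2) F → ℂ) g) ∧
      (∀ g : GL (Fin 2) F, ¬ 3 ∣ orderOf g → (ρ : GL (Fin 2) F → ℂ) g = (ln g : ℂ) - 2) ∧
      (∀ g : GL (Fin 2) F, 0 < ln g → (ρ : GL (Fin 2) F → ℂ) g = (ln g : ℂ) - 2) ∧
      IsCusp (ρ : GL (Fin 2) F → ℂ) := by
  obtain ⟨p, hp⟩ := CharP.exists F
  have hpf : Fact p.Prime := ⟨CharP.char_is_prime F p⟩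
  let L := FiniteField.Extension F p 2
  have hL : Module.finrank F L = 2 := FiniteField.finrank_extension F p 2
  obtain ⟨θ₀, hθ₀⟩ := exists_theta L
  obtain ⟨k, hk⟩ : ∃ k, Nat.card F = 3 * k + 2 := ⟨Nat.card F / 3, by omega⟩
  have hq2 : 2 ≤ Nat.card F := Finite.one_lt_card
  set a := (Nat.card F - 1) * (k + 1) with ha'
  have h3a : Nat.card F ^ 2 - 1 = 3 * a := by
    have h1 : Nat.card F ^ 2 - 1 = (Nat.card F + 1) * (Nat.card F - 1) := by
      have := Nat.sq_sub_sq (Nat.card F) 1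
      rwa [one_pow] at this
    rw [h1, ha', show Nat.card F + 1 = 3 * (k + 1) by omega]
    ring
  have ha : a ≠ 0 := Nat.mul_ne_zero (by omega) (by omega)
  have hcardL : Nat.card Lˣ = Nat.card F ^ 2 - 1 := by
    rw [Nat.card_units, Module.natCard_eq_pow_finrank (K := F), hL]
  have hreg : Regular F 2 (powTheta θ₀ a ha) := by
    rw [regular_powTheta_iff hθ₀ ha hL]
    intro i h0 hi hdvd
    obtain rfl : i = 1 := by omega
    rw [pow_one, h3a, mul_comm 3 a] at hdvd
    have h1 := Nat.dvd_of_mul_dvd_mul_left (Nat.pos_of_ne_zero ha) hdvd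
    omega
  have htr : ∀ c : F, c ≠ 0 → powTheta θ₀ a ha (algebraMap F L c) = 1 := fun c hc =>
    powTheta_algebraMap ha (Dvd.intro _ rfl) hc
  have h3 : ∀ x : L, x ≠ 0 → powTheta θ₀ a ha x ^ 3 = 1 := by
    intro x hx
    rw [powTheta_apply, ← pow_mul, mul_comm a 3, ← h3a, ← hcardL, ← map_pow]
    have h1 : (Units.mk0 x hx) ^ Nat.card Lˣ = 1 := pow_card_eq_one'
    have h2 : x ^ Nat.card Lˣ = 1 := congrArg Units.val h1
    rw [h2, map_one]
  refine ⟨⟨psi L (powTheta θ₀ a ha), psi_isIrr (powTheta θ₀ a ha) hL hreg⟩, ?_, ?_, ?_, ?_, ?_⟩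
  · show psi L (powTheta θ₀ a ha) (1 : GL (Fin 2) F) = _
    rw [psi_one L (powTheta θ₀ a ha) two_pos, degP]
    have h1 : ∏ i ∈ Finset.range (2 - 1), (Nat.card F ^ (i + 1) - 1) = Nat.card F - 1 := by
      rw [show 2 - 1 = 1 from rfl, Finset.prod_range_one, zero_add, pow_one]
    rw [h1, Nat.cast_sub (by omega), Nat.cast_one]
  · intro c g
    show psi L (powTheta θ₀ a ha) _ = psi L (powTheta θ₀ a ha) g
    rw [psi_scalar (powTheta θ₀ a ha) hL, htr c c.ne_zero, one_mul]
  · intro g hg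
    exact psi_reg (powTheta θ₀ a ha) hL htr h3 (Nat.Coprime.symm ((Nat.Prime.coprime_iff_not_dvd Nat.prime_three).2 hg))
  · intro g hg
    exact psi_pos (powTheta θ₀ a ha) htr hg
  · exact psi_isCusp L (powTheta θ₀ a ha)

end Cfsg.Agent.H495.HT
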